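import Cfsg.Agent.H107.Rg.PsuFin
import Cfsg.Agent.H746.Rg.Inst

/-!
# S5714 C12: the row `PSU`, without hypotheses (helper107)
-/

set_option autoImplicit false

namespace Cfsg.Agent.H107.Rg

open Cfsg Cfsg.Agent.OrdDiv Cfsg.Agent.H436 Cfsg.Agent.H141.Rg

/-- **C12**: `FamP` for the unitary groups -/
theorem famP_psu : FamP (fun g => ∃ n q, g = .psu n q) := famP_psu' H746.Rg.coreSt H746.Rg.smallSt

end Cfsg.Agent.H107.Rg
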